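import Mathlib
import Cfsg.Prelude.Def_DegreeGraph
import Cfsg.Agent.CharBasics.Induced
import Cfsg.Agent.CharBasics.Central
import Cfsg.Agent.Clifford.Basic
import Cfsg.Agent.Clifford.LinChar

/-!
Groups of order 6048 with a complete degree graph on 2, 3, 7; a solvable example `R ⋊ Rˣ`.
-/

set_option autoImplicit false

namespace CfsgLib.DegGraph

open Cfsg CfsgLib.CharBasics CfsgLib.Clifford
open scoped ComplexConjugate

universe u

theorem prime_dvd_6048 {p : ℕ} (hp : p.Prime) (h : p ∣ 6048) : p = 2 ∨ p = 3 ∨ p = 7 := by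
  rw [show 6048 = 2 ^ 5 * 3 ^ 3 * 7 by norm_num] at h
  rcases hp.dvd_mul.1 h with h | h
  · rcases hp.dvd_mul.1 h with h | h
    · exact Or.inl ((Nat.prime_dvd_prime_iff_eq hp Nat.prime_two).1 (hp.dvd_of_dvd_pow h))
    · exact Or.inr (Or.inl ((Nat.prime_dvd_prime_iff_eq hp Nat.prime_three).1 (hp.dvd_of_dvd_pow h)))
  · exact Or.inr (Or.inr ((Nat.prime_dvd_prime_iff_eq hp (by norm_num)).1 h))

/-- The three edges. -/
def HasTriangle (G : Type u) [Group G] : Prop :=
  (∃ d ∈ charDegrees G, 6 ∣ d) ∧ (∃ d ∈ charDegrees G, 14 ∣ d) ∧ (∃ d ∈ charDegrees G, 21 ∣ d)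

theorem degreePrimes_eq {G : Type u} [Group G] [Finite G] (hc : Nat.card G = 6048) (h : HasTriangle G) :
    degreePrimes G = {2, 3, 7} := by
  obtain ⟨⟨d, hd, h6⟩, ⟨e, he, h14⟩, -⟩ := h
  ext p
  simp only [degreePrimes, Set.mem_setOf_eq, Set.mem_insert_iff, Set.mem_singleton_iff]
  constructor
  · rintro ⟨hp, n, ⟨χ, rfl⟩, hn⟩
    exact prime_dvd_6048 hp (hc ▸ hn.trans (degree_dvd χ))
  · rintro (rfl | rfl | rfl)
    · exact ⟨Nat.prime_two, d, hd, (Nat.dvd_trans (by norm_num) h6)⟩
    · exact ⟨Nat.prime_three, d, hd, (Nat.dvd_trans (by norm_num) h6)⟩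
    · exact ⟨by norm_num, e, he, (Nat.dvd_trans (by norm_num) h14)⟩

theorem degreeGraph_adj {G : Type u} [Group G] [Finite G] (hc : Nat.card G = 6048) (h : HasTriangle G) (p q : ℕ) :
    (degreeGraph G).Adj p q ↔ p ≠ q ∧ (p = 2 ∨ p = 3 ∨ p = 7) ∧ (q = 2 ∨ q = 3 ∨ q = 7) := by
  obtain ⟨⟨d, hd, h6⟩, ⟨e, he, h14⟩, ⟨f, hf, h21⟩⟩ := h
  constructor
  · rintro ⟨hne, hp, hq, n, ⟨χ, rfl⟩, hn⟩
    have hG := hc ▸ hn.trans (degree_dvd χ)
    exact ⟨hne, prime_dvd_6048 hp ((dvd_mul_right p q).trans hG), prime_dvd_6048 hq ((dvd_mul_left q p).trans hG)⟩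
  · rintro ⟨hne, hp, hq⟩
    have hP : ∀ r : ℕ, (r = 2 ∨ r = 3 ∨ r = 7) → r.Prime := by
      rintro r (rfl | rfl | rfl) <;> norm_num
    refine ⟨hne, hP p hp, hP q hq, ?_⟩
    rcases hp with rfl | rfl | rfl <;> rcases hq with rfl | rfl | rfl
    all_goals first
      | exact absurd rfl hne
      | exact ⟨d, hd, h6⟩
      | exact ⟨e, he, h14⟩
      | exact ⟨f, hf, h21⟩

theorem degreeGraph_eq {G : Type u} [Group G] [Finite G] {H : Type*} [Group H] [Finite H]
    (hG : Nat.card G = 6048) (tG : HasTriangle G) (hH : Nat.card H = 6048) (tH : HasTriangle H) :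
    degreePrimes G = degreePrimes H ∧ degreeGraph G = degreeGraph H := by
  refine ⟨(degreePrimes_eq hG tG).trans (degreePrimes_eq hH tH).symm, ?_⟩
  ext p q
  rw [degreeGraph_adj hG tG, degreeGraph_adj hH tH]

variable (R : Type) [CommRing R]

/-- Multiplication by units, as automorphisms of the additive group. -/
def unitsAct : Rˣ →* MulAut (Multiplicative R) where
  toFun u :=
    { toFun := fun x => Multiplicative.ofAdd ((u : R) * x.toAdd)
      invFun := fun x => Multiplicative.ofAdd (((u⁻¹ : Rˣ) : R) * x.toAdd)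
      left_inv := fun x => by simp
      right_inv := fun x => by simp
      map_mul' := fun x y => by simp [mul_add, ofAdd_add] }
  map_one' := by ext x; simp
  map_mul' u v := by ext x; simp [mul_assoc]

/-- The affine group of a ring. -/
abbrev RingAff : Type := Multiplicative R ⋊[unitsAct R] Rˣ

variable {R}

instance [Finite R] : Finite (RingAff R) := Finite.of_equiv _ SemidirectProduct.equivProd.symm

/-- A primitive additive character gives a degree divisible by the number of units. -/
theorem exists_degree [Finite R] (ψ : AddChar R ℂ) (hψ : ψ.IsPrimitive) :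
    ∃ d ∈ charDegrees (RingAff R), Nat.card Rˣ ∣ d := by
  classical
  haveI : Fintype (RingAff R) := Fintype.ofFinite _
  set N : Subgroup (RingAff R) := (SemidirectProduct.inl : Multiplicative R →* RingAff R).range with hN
  haveI : N.Normal := by
    rw [hN, SemidirectProduct.range_inl_eq_ker_rightHom]
    infer_instance
  haveI : Fintype N := Fintype.ofFinite _
  let l : N →* ℂ :=
    { toFun := fun n => ψ ((n : RingAff R).left.toAdd)
      map_one' := by simp
      map_mul' := fun a b => by
        obtain ⟨⟨_, x, rfl⟩, ⟨_, y, rfl⟩⟩ := a, b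
        simp [AddChar.map_add_eq_mul] }
  have hl : IsCharacter N (fun n => l n) := isCharacter_of_hom l
  have hl1 : IsIrrCharacter N (fun n => l n) := by
    refine isIrr_of_norm_one hl ?_
    rw [classInner_eq, inv_mul_eq_iff_eq_mul₀ (Nat.cast_ne_zero.2 Nat.card_pos.ne'), mul_one,
      Nat.card_eq_fintype_card, ← Finset.card_univ]
    rw [Finset.sum_congr rfl (g := fun _ => (1 : ℂ)) (fun n _ => ?_), Finset.sum_const, nsmul_eq_mul, mul_one]
    show ψ ((n : RingAff R).left.toAdd) * conj (ψ ((n : RingAff R).left.toAdd)) = 1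
    rw [← AddChar.map_neg_eq_conj]
    show ψ _ * ψ _ = 1
    rw [← AddChar.map_add_eq_mul, add_neg_cancel, AddChar.map_zero_eq_one]
  obtain ⟨χ, m, hm, hχ⟩ := exists_constituent (isCharacter_indFun N hl) (by
    rw [indFun_apply_one]
    simp [Subgroup.index_ne_zero_of_finite])
  rw [classInner_indFun N _ (isClassFunction (isCharacter_of_irr χ.2))] at hχ
  have hne : classInner (fun n : N => (χ : RingAff R → ℂ) n) (fun n => l n) ≠ 0 := by
    rw [classInner_comm, hχ, Complex.conj_natCast]
    exact Nat.cast_ne_zero.2 hm.ne'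
  have hI : inertia (fun n : N => l n) = N := by
    refine le_antisymm (fun g hg => ?_) (le_inertia (fun a b => by
      show l (b * a * b⁻¹) = l a
      rw [map_mul, map_mul, mul_comm (l b), mul_assoc, ← map_mul, mul_inv_cancel, map_one, mul_one]))
    rw [mem_inertia] at hg
    have hu : g.right = 1 := by
      by_contra hne1
      have h0 : ((g.right : R) - 1) ≠ 0 := fun e => hne1 (Units.ext (sub_eq_zero.1 e))
      apply hψ h0
      refine DFunLike.ext _ _ fun x => ?_
      have := congrFun hg ⟨SemidirectProduct.inl (Multiplicative.ofAdd x), _, rfl⟩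
      rw [conjFun_apply] at this
      rw [AddChar.mulShift_apply, sub_mul, one_mul, sub_eq_add_neg, AddChar.map_add_eq_mul, AddChar.one_apply]
      have e : ψ ((g.right : R) * x) = ψ x := by
        have h1 : (g * SemidirectProduct.inl (Multiplicative.ofAdd x) * g⁻¹).left.toAdd = (g.right : R) * x := by
          obtain ⟨a, ha⟩ : ∃ a, g = SemidirectProduct.inl a * SemidirectProduct.inr g.right :=
            ⟨g.left, (SemidirectProduct.inl_left_mul_inr_right g).symm⟩
          rw [ha, show SemidirectProduct.inl a * SemidirectProduct.inr g.right *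
              SemidirectProduct.inl (Multiplicative.ofAdd x) *
              (SemidirectProduct.inl a * SemidirectProduct.inr g.right : RingAff R)⁻¹ =
              SemidirectProduct.inl (unitsAct R g.right (Multiplicative.ofAdd x)) by
            rw [mul_inv_rev, show SemidirectProduct.inl a * SemidirectProduct.inr g.right *
              SemidirectProduct.inl (Multiplicative.ofAdd x) *
              ((SemidirectProduct.inr g.right : RingAff R)⁻¹ * (SemidirectProduct.inl a)⁻¹) =
              SemidirectProduct.inl a * (SemidirectProduct.inr g.right *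
              SemidirectProduct.inl (Multiplicative.ofAdd x) *
              (SemidirectProduct.inr g.right)⁻¹) * ((SemidirectProduct.inl a : RingAff R))⁻¹ by group,
              ← map_inv SemidirectProduct.inr, ← SemidirectProduct.inl_aut, ← map_mul, ← map_inv, ← map_mul,
              mul_comm a, mul_inv_cancel_right]]
          rw [SemidirectProduct.left_inl, ← ha]
          rfl
        calc ψ ((g.right : R) * x) = ψ ((g * SemidirectProduct.inl (Multiplicative.ofAdd x) * g⁻¹).left.toAdd) := by
              rw [h1]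
          _ = ψ x := by simpa [l] using this
      rw [e, ← AddChar.map_add_eq_mul, add_neg_cancel, AddChar.map_zero_eq_one]
    rw [hN, SemidirectProduct.range_inl_eq_ker_rightHom, MonoidHom.mem_ker]
    exact hu
  have hidx : N.index = Nat.card Rˣ := by
    rw [hN, SemidirectProduct.range_inl_eq_ker_rightHom, Subgroup.index_ker,
      MonoidHom.range_eq_top.2 SemidirectProduct.rightHom_surjective, Subgroup.card_top]
  have h1 := restrict_one_eq χ.2 hl1 hne
  rw [hI, hidx] at h1
  obtain ⟨k, hk⟩ : ∃ k : ℕ, classInner (fun n : N => (χ : RingAff R → ℂ) n) (fun n => l n) = k := by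
    exact ⟨m, by rw [classInner_comm, hχ, Complex.conj_natCast]⟩
  rw [hk, apply_one (isCharacter_of_irr χ.2), map_one l, mul_one] at h1
  exact ⟨_, ⟨χ, rfl⟩, k, by rw [mul_comm]; exact_mod_cast h1⟩

/-- The solvable example. -/
theorem exists_model : ∃ (H : Type) (_ : Group H) (_ : Fintype H), Group.IsSolvable H ∧ Nat.card H = 6048 ∧
    HasTriangle H := by
  classical
  haveI : Fact (Nat.Prime 2) := ⟨Nat.prime_two⟩
  haveI : Fintype (GaloisField 2 3) := Fintype.ofFinite _
  let K := GaloisField 2 3
  have hK : Nat.card K = 8 := by rw [GaloisField.card 2 3 (by norm_num)]; rfl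
  let R := K × ZMod 18
  haveI : Fintype (RingAff R) := Fintype.ofFinite _
  have hU : Nat.card Rˣ = 42 := by
    rw [Nat.card_congr MulEquiv.prodUnits.toEquiv, Nat.card_prod, Nat.card_units, hK,
      Nat.card_eq_fintype_card, ZMod.card_units_eq_totient]
    rfl
  have hc : Nat.card (RingAff R) = 6048 := by
    rw [SemidirectProduct.card, hU, Nat.card_congr Multiplicative.toAdd, Nat.card_prod, hK, Nat.card_zmod]
  obtain ⟨φ, hφ⟩ : ∃ φ : AddChar K ℂ, φ.IsPrimitive := by
    have h := (AddChar.exists_apply_ne_zero (α := K)).2 (one_ne_zero (α := K))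
    obtain ⟨φ, hφ⟩ := h
    exact ⟨φ, AddChar.IsPrimitive.of_ne_one fun e => hφ (by rw [e, AddChar.one_apply])⟩
  let ψ : AddChar R ℂ :=
    { toFun := fun x => φ x.1 * ZMod.stdAddChar x.2
      map_zero_eq_one' := by simp
      map_add_eq_mul' := fun x y => by
        show φ (x.1 + y.1) * ZMod.stdAddChar (x.2 + y.2) = _
        rw [AddChar.map_add_eq_mul, AddChar.map_add_eq_mul]
        ring }
  have hψ : ψ.IsPrimitive := by
    intro r hr e
    apply hr
    have h2 := DFunLike.congr_fun e ((0, 1) : R)
    change φ (r.1 * 0) * ZMod.stdAddChar (r.2 * 1) = 1 at h2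
    rw [mul_zero, mul_one, AddChar.map_zero_eq_one, one_mul] at h2
    have hb : r.2 = 0 := ZMod.injective_stdAddChar (by rw [h2, AddChar.map_zero_eq_one])
    by_contra hr'
    have ha : r.1 ≠ 0 := fun e => hr' (Prod.ext e hb)
    apply hφ ha
    refine DFunLike.ext _ _ fun t => ?_
    have h1 := DFunLike.congr_fun e ((t, 0) : R)
    change φ (r.1 * t) * ZMod.stdAddChar (r.2 * 0) = 1 at h1
    rw [mul_zero, AddChar.map_zero_eq_one, mul_one] at h1
    exact h1
  obtain ⟨d, hd, hdvd⟩ := exists_degree ψ hψ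
  rw [hU] at hdvd
  refine ⟨RingAff R, inferInstance, inferInstance, ?_, hc,
    ⟨d, hd, (Nat.dvd_trans (by norm_num) hdvd)⟩, ⟨d, hd, (Nat.dvd_trans (by norm_num) hdvd)⟩,
    ⟨d, hd, (Nat.dvd_trans (by norm_num) hdvd)⟩⟩
  exact Group.isSolvable_of_ker_le_range (SemidirectProduct.inl : Multiplicative R →* RingAff R)
    SemidirectProduct.rightHom SemidirectProduct.range_inl_eq_ker_rightHom.ge

end CfsgLib.DegGraph
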