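import Cfsg.Agent.DegGraph.Model
import Cfsg.Agent.CharBasics.SqrtCount
import Cfsg.Agent.Clifford.PrincipalSeries
import Cfsg.Agent.Blocks.Glauberman
import Cfsg.Agent.S4441

/-!
Degrees of a perfect group of order 6048 with a doubly transitive action on 28 points.
-/

set_option autoImplicit false
set_option linter.unusedSectionVars false

namespace CfsgLib.DegGraph

open Cfsg CfsgLib.CharBasics CfsgLib.Clifford
open scoped ComplexConjugate

universe u v

variable {G : Type u} [Group G]

/-- The facts about `SU(3,3)` used for its degrees. -/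
structure UData (G : Type u) [Group G] (F : Type v) [Field F] where
  B : Subgroup G
  a : B →* F
  w : G
  card : Nat.card G = 6048
  perfect : commutator G = ⊤
  index : B.index = 28
  two : ∀ x : G, x ∉ B → ∃ b : B, ((b : G) * w)⁻¹ * x ∈ B
  out : w ∉ B
  twist : ∀ (y : B) (h : w⁻¹ * y * w ∈ B), a ⟨_, h⟩ = a y ^ 5
  eight : ∀ y : B, a y ^ 8 = 1
  inj : ∀ y : B, w⁻¹ * y * w ∈ B → a y = 1 → y = 1
  sq : ∀ (g : G), g ∉ B → ∀ h : g * g ∈ B, a ⟨_, h⟩ ^ 4 = 1
  cent : ∀ x y : G, orderOf x = 7 → (orderOf y = 2 ∨ orderOf y = 3) → ¬ Commute x y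

variable [Fintype G] {F : Type v} [Field F] [Fintype F] (hF : Fintype.card F = 9) (D : UData G F)

namespace UData

/-- The two point stabiliser. -/
def T : Subgroup D.B where
  carrier := {y | D.w⁻¹ * (y : G) * D.w ∈ D.B}
  mul_mem' {x y} hx hy := by
    have h := D.B.mul_mem hx hy
    simpa [mul_assoc] using h
  one_mem' := by simp
  inv_mem' {x} hx := by
    have h := D.B.inv_mem hx
    simpa [mul_assoc] using h

theorem mem_T {y : D.B} : y ∈ D.T ↔ D.w⁻¹ * (y : G) * D.w ∈ D.B := Iff.rfl

theorem card_B : Nat.card D.B = 216 := by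
  have h := D.B.card_mul_index
  rw [D.index, D.card] at h
  omega

theorem card_T : Nat.card D.T = 8 := by
  classical
  have hst : MulAction.stabilizer D.B ((D.w : G) : G ⧸ D.B) = D.T := by
    ext y
    rw [MulAction.mem_stabilizer_iff, mem_T]
    show (((y : G) * D.w : G) : G ⧸ D.B) = _ ↔ _
    rw [QuotientGroup.eq]
    constructor <;> intro h <;> have := D.B.inv_mem h <;> simpa [mul_assoc] using this
  have horb : MulAction.orbit D.B ((D.w : G) : G ⧸ D.B) = {((1 : G) : G ⧸ D.B)}ᶜ := by
    ext c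
    induction c using QuotientGroup.induction_on with
    | H x =>
      rw [Set.mem_compl_singleton_iff, ne_eq, QuotientGroup.eq, MulAction.mem_orbit_iff]
      constructor
      · rintro ⟨b, hb⟩ hx
        replace hb : (((b : G) * D.w : G) : G ⧸ D.B) = x := hb
        rw [QuotientGroup.eq] at hb
        apply D.out
        have h1 : x⁻¹⁻¹ ∈ D.B := D.B.inv_mem (by simpa using hx)
        have h2 : (b : G) * D.w ∈ D.B := by
          have := D.B.mul_mem (by simpa using h1) (D.B.inv_mem hb)
          simpa [mul_assoc] using this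
        simpa [mul_assoc] using D.B.mul_mem (D.B.inv_mem b.2) h2
      · intro hx
        obtain ⟨b, hb⟩ := D.two x (fun h => hx (by simpa using h))
        exact ⟨b, show (((b : G) * D.w : G) : G ⧸ D.B) = x from QuotientGroup.eq.2 hb⟩
  have h := MulAction.index_stabilizer D.B ((D.w : G) : G ⧸ D.B)
  rw [hst, horb, Set.ncard_compl, Set.ncard_singleton] at h
  have h2 := D.T.card_mul_index
  rw [h, D.card_B, show Nat.card (G ⧸ D.B) = 28 from D.index] at h2
  omega

theorem val_ne_zero (y : D.B) : D.a y ≠ 0 := fun h => by simpa [h] using D.eight y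

include hF in
theorem surj (u : Fˣ) : ∃ t : D.T, D.a t = u := by
  let f : D.T → Fˣ := fun t => Units.mk0 (D.a t) (D.val_ne_zero _)
  have hf : Function.Injective f := by
    intro s t e
    have e' : D.a (s : D.B) = D.a t := congrArg Units.val e
    have h1 : D.a ((s : D.B)⁻¹ * t) = 1 := by
      rw [map_mul, ← e', ← map_mul, inv_mul_cancel, map_one]
    exact Subtype.ext (inv_mul_eq_one.1 (D.inj _ (s⁻¹ * t).2 h1))
  have hb : Function.Bijective f := (Nat.bijective_iff_injective_and_card f).2
    ⟨hf, by rw [D.card_T, Nat.card_units, Nat.card_eq_fintype_card, hF]⟩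
  obtain ⟨t, rfl⟩ := hb.2 u
  exact ⟨t, rfl⟩

include hF in
/-- A linear character of order 8. -/
theorem exists_z : ∃ z : D.B →* ℂ, (∀ y, z y ^ 8 = 1) ∧ (∀ y, D.a y = 1 ↔ z y = 1) ∧
    (∀ (y : D.B) (h : D.w⁻¹ * y * D.w ∈ D.B), z ⟨_, h⟩ = z y ^ 5) ∧
    (∃ t ∈ D.T, z t ^ 4 = -1) ∧ ∀ (g : G), g ∉ D.B → ∀ h : g * g ∈ D.B, z ⟨_, h⟩ ^ 4 = 1 := by
  obtain ⟨g, hg⟩ := IsCyclic.exists_generator (α := Fˣ)
  have hgo : orderOf g = 8 := by
    rw [orderOf_eq_card_of_forall_mem_zpowers hg, Nat.card_units, Nat.card_eq_fintype_card, hF]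
  have hζ := Complex.isPrimitiveRoot_exp 8 (by norm_num)
  set ζ : ℂˣ := hζ.toRootsOfUnity.1 with hζd
  have hζo : orderOf ζ = 8 := by
    rw [← orderOf_units, hζd]
    exact hζ.eq_orderOf.symm
  let ψ : Fˣ →* ℂˣ := monoidHomOfForallMemZpowers hg (show orderOf ζ ∣ orderOf g by rw [hgo, hζo])
  have hψg : ψ g = ζ := monoidHomOfForallMemZpowers_apply_gen hg _
  have hψi : Function.Injective ψ := by
    rw [injective_iff_map_eq_one]
    intro u hu
    obtain ⟨k, rfl⟩ := Subgroup.mem_zpowers_iff.1 (hg u)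
    rw [map_zpow, hψg, ← orderOf_dvd_iff_zpow_eq_one, hζo] at hu
    rwa [← orderOf_dvd_iff_zpow_eq_one, hgo]
  let au : D.B →* Fˣ :=
    { toFun := fun y => Units.mk0 (D.a y) (D.val_ne_zero y)
      map_one' := Units.ext (by simp)
      map_mul' := fun x y => Units.ext (by simp) }
  let z : D.B →* ℂ := (Units.coeHom ℂ).comp (ψ.comp au)
  have hpow : ∀ (y y' : D.B) (n : ℕ), D.a y' = D.a y ^ n → z y' = z y ^ n := fun y y' n h => by
    have e : au y' = au y ^ n := Units.ext (by simpa [au] using h)
    simp only [z, MonoidHom.coe_comp, Function.comp_apply, e, map_pow]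
  have hone : ∀ (y : D.B) (n : ℕ), D.a y ^ n = 1 ↔ z y ^ n = 1 := fun y n => by
    have e : z y ^ n = ((ψ (au y ^ n) : ℂˣ) : ℂ) := by simp [z, map_pow]
    rw [e, Units.val_eq_one, map_eq_one_iff ψ hψi, ← Units.val_inj]
    simp [au]
  refine ⟨z, fun y => (hone y 8).1 (D.eight y), fun y => ?_, fun y h => hpow _ _ 5 (D.twist y h), ?_,
    fun x hx h => (hone _ 4).1 (D.sq x hx h)⟩
  · simpa using hone y 1
  obtain ⟨t, ht⟩ := D.surj hF g
  refine ⟨t, t.2, ?_⟩
  have e : au (t : D.B) = g := Units.ext ht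
  show ((ψ (au (t : D.B)) : ℂˣ) : ℂ) ^ 4 = -1
  rw [e, hψg]
  have h8 : ((ζ : ℂ) ^ 4) ^ 2 = 1 := by
    rw [← pow_mul, ← Units.val_pow_eq_pow_val, show 4 * 2 = orderOf ζ by rw [hζo], pow_orderOf_eq_one, Units.val_one]
  have h4 : (ζ : ℂ) ^ 4 ≠ 1 := by
    rw [← Units.val_pow_eq_pow_val, Ne, Units.val_eq_one, ← orderOf_dvd_iff_pow_eq_one, hζo]
    decide
  exact (sq_eq_one_iff.1 h8).resolve_left h4

theorem isClassFunction_hom (l : D.B →* ℂ) : Cfsg.IsClassFunction D.B (fun y => l y) := fun g x => by
  show l (x * g * x⁻¹) = l g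
  rw [map_mul, map_mul, mul_comm (l x), mul_assoc, ← map_mul, mul_inv_cancel, map_one, mul_one]

/-- Inner products of the principal series. -/
theorem inner_ind [Fintype D.B] (l m : D.B →* ℂ) :
    Cfsg.classInner (Cfsg.indFun D.B (fun y => l y)) (Cfsg.indFun D.B (fun y => m y)) =
      Cfsg.classInner (fun y => l y) (fun y => m y) +
      (27 : ℂ) * (216 : ℂ)⁻¹ * ∑ y : D.B, l y * conj (Cfsg.extendByZero D.B (fun y => m y) (D.w⁻¹ * y * D.w)) := by
  classical
  let ι := {c : G ⧸ D.B // c ≠ ((1 : G) : G ⧸ D.B)}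
  have hex : ∀ i : ι, ∃ b : D.B, (((b : G) * D.w : G) : G ⧸ D.B) = i.1 := by
    rintro ⟨c, hc⟩
    obtain ⟨x, rfl⟩ := QuotientGroup.mk_surjective c
    obtain ⟨b, hb⟩ := D.two x (fun h => hc (QuotientGroup.eq.2 (by simpa using h)))
    exact ⟨b, QuotientGroup.eq.2 hb⟩
  choose U hU using hex
  haveI : Fintype ι := Fintype.ofFinite ι
  have hι : Fintype.card ι = 27 := by
    rw [Fintype.card_subtype_compl, Fintype.card_subtype_eq, ← Nat.card_eq_fintype_card]
    rw [show Nat.card (G ⧸ D.B) = 28 from D.index]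
  rw [CfsgLib.PrincipalSeries.two_coset_inner D.B D.w U (fun x hx => ?_) (fun i h => ?_) _ _
    (D.isClassFunction_hom l) (D.isClassFunction_hom m), hι, D.card_B]
  · norm_num
  · refine ⟨⟨(x : G ⧸ D.B), fun e => hx ?_⟩, ?_, fun i hi => ?_⟩
    · simpa using QuotientGroup.eq.1 e
    · exact QuotientGroup.eq.1 (hU _)
    · refine Subtype.ext ?_
      rw [← hU i]
      exact QuotientGroup.eq.2 hi
  · apply i.2
    rw [← hU i]
    exact QuotientGroup.eq.2 (by simpa using D.B.inv_mem h)

theorem sum_hom_eq_zero {H : Type*} [Group H] [Fintype H] (l : H →* ℂ) {t : H} (h : l t ≠ 1) :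
    ∑ y : H, l y = 0 := by
  have h1 : l t * ∑ y : H, l y = ∑ y : H, l y := by
    rw [Finset.mul_sum]
    exact Fintype.sum_equiv (Equiv.mulLeft t) _ _ fun y => by simp
  have h2 := sub_mul (l t) 1 (∑ y : H, l y)
  rw [h1, one_mul, sub_self] at h2
  exact (mul_eq_zero.1 h2).resolve_left (sub_ne_zero.2 h)

theorem conj_root {c : ℂ} (h : c ^ 8 = 1) : conj c = c ^ 7 := by
  have hn : ‖c‖ = 1 := Complex.norm_eq_one_of_pow_eq_one h (by norm_num)
  rw [← Complex.inv_eq_conj hn]
  exact inv_eq_of_mul_eq_one_right (by rw [← pow_succ', h])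

theorem dvd_of_root {c : ℂ} (h4 : c ^ 4 = -1) {n : ℕ} (hn : c ^ n = 1) : 8 ∣ n := by
  have h8 : c ^ 8 = 1 := by rw [show (8 : ℕ) = 4 * 2 from rfl, pow_mul, h4]; norm_num
  have ho : orderOf c = 2 ^ 3 := orderOf_eq_prime_pow (hp := ⟨Nat.prime_two⟩)
    (by rw [show (2 : ℕ) ^ 2 = 4 from rfl, h4]; norm_num) h8
  have := orderOf_dvd_of_pow_eq_one hn
  rwa [ho] at this

/-- Inner products of powers of an order 8 character. -/
theorem inner_pow [Fintype D.B] {z : D.B →* ℂ} (h8 : ∀ y, z y ^ 8 = 1)
    (h5 : ∀ (y : D.B) (h : D.w⁻¹ * y * D.w ∈ D.B), z ⟨_, h⟩ = z y ^ 5) {t : D.B} (ht : t ∈ D.T)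
    (ht4 : z t ^ 4 = -1) (i j : ℕ) :
    Cfsg.classInner (Cfsg.indFun D.B (fun y => (z ^ i) y)) (Cfsg.indFun D.B (fun y => (z ^ j) y)) =
      (if (z t) ^ (i + 7 * j) = 1 then 1 else 0) + (if (z t) ^ (i + 3 * j) = 1 then 1 else 0) := by
  classical
  have htord : ∀ n, (z t) ^ n = 1 → ∀ y, z y ^ n = 1 := by
    intro n hn y
    obtain ⟨k, rfl⟩ := dvd_of_root ht4 hn
    rw [pow_mul, h8, one_pow]
  rw [D.inner_ind]
  congr 1
  · rw [classInner_eq, Finset.sum_congr rfl (g := fun y : D.B => (z ^ (i + 7 * j)) y) (fun y _ => by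
      rw [MonoidHom.pow_apply, MonoidHom.pow_apply, MonoidHom.pow_apply, map_pow, conj_root (h8 y)]; ring)]
    split_ifs with h
    · rw [Finset.sum_congr rfl (g := fun _ : D.B => (1 : ℂ)) (fun y _ => by
        rw [MonoidHom.pow_apply]; exact htord _ h y), Finset.sum_const, nsmul_eq_mul, mul_one, Finset.card_univ,
        ← Nat.card_eq_fintype_card, inv_mul_cancel₀ (Nat.cast_ne_zero.2 Nat.card_pos.ne')]
    · rw [sum_hom_eq_zero (z ^ (i + 7 * j)) (t := t) (by rwa [MonoidHom.pow_apply]), mul_zero]
  · haveI : Fintype D.T := Fintype.ofFinite _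
    have hres : ∑ y : D.B, (z ^ i) y * conj (Cfsg.extendByZero D.B (fun y => (z ^ j) y) (D.w⁻¹ * y * D.w)) =
        ∑ y : D.T, (z ^ (i + 3 * j)) (y : D.B) := by
      rw [← Finset.sum_subset (Finset.subset_univ (Finset.univ.filter fun y => y ∈ D.T))
        (fun y _ hy => by
          rw [CfsgLib.IndFun.extendByZero_not_mem (H := D.B) _ (y := D.w⁻¹ * (y : G) * D.w)
            (fun h => hy (Finset.mem_filter.2 ⟨Finset.mem_univ _, h⟩)),
            map_zero, mul_zero])]
      rw [Finset.sum_subtype (Finset.univ.filter fun y => y ∈ D.T) (p := fun y => y ∈ D.T) (fun y => by simp)]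
      refine Finset.sum_congr rfl fun y _ => ?_
      rw [CfsgLib.IndFun.extendByZero_mem _ (show D.w⁻¹ * ((y : D.B) : G) * D.w ∈ D.B from y.2)]
      rw [MonoidHom.pow_apply, MonoidHom.pow_apply, MonoidHom.pow_apply, h5 _ y.2, map_pow, map_pow,
        conj_root (h8 _)]
      rw [← pow_mul, ← pow_mul, ← pow_add]
      have h32 : z (y : D.B) ^ (32 * j) = 1 := by rw [show 32 * j = 8 * (4 * j) by ring, pow_mul, h8, one_pow]
      rw [show i + 7 * (5 * j) = (i + 3 * j) + 32 * j by ring, pow_add, h32, mul_one]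
    rw [hres]
    split_ifs with h
    · rw [Finset.sum_congr rfl (g := fun _ : D.T => (1 : ℂ)) (fun y _ => by
        rw [MonoidHom.pow_apply]; exact htord _ h _), Finset.sum_const, nsmul_eq_mul, mul_one, Finset.card_univ,
        ← Nat.card_eq_fintype_card, D.card_T]
      norm_num
    · have h0 := sum_hom_eq_zero ((z ^ (i + 3 * j)).comp D.T.subtype) (t := ⟨t, ht⟩) (by
        show (z ^ (i + 3 * j)) t ≠ 1
        rwa [MonoidHom.pow_apply])
      rw [show ∑ y : D.T, (z ^ (i + 3 * j)) (y : D.B) = 0 from h0, mul_zero]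

theorem split_norm_two {P : G → ℂ} (hP : IsCharacter G P) (h2 : classInner P P = 2) :
    ∃ χ₁ χ₂ : IrrCharacter G, χ₁ ≠ χ₂ ∧ P = (χ₁ : G → ℂ) + (χ₂ : G → ℂ) := by
  classical
  have hP1 : P 1 ≠ 0 := fun e => by
    rw [eq_zero_of_apply_one hP e, classInner_zero_left] at h2
    norm_num at h2
  obtain ⟨χ, m, hm, hχ⟩ := exists_constituent hP hP1
  obtain ⟨R, hR, rfl⟩ := exists_eq_add_of_constituent hP χ.2 (by rw [hχ]; exact Nat.cast_ne_zero.2 hm.ne')
  obtain ⟨k, hk⟩ := classInner_character_nat hR χ
  obtain ⟨n, hn⟩ := classInner_characters_nat hR hR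
  have hk' : classInner (χ : G → ℂ) R = k := by rw [classInner_comm, hk, Complex.conj_natCast]
  have hexp : classInner ((χ : G → ℂ) + R) ((χ : G → ℂ) + R) = ((1 + k + (k + n) : ℕ) : ℂ) := by
    have hr : ∀ Q : G → ℂ, classInner Q ((χ : G → ℂ) + R) = classInner Q (χ : G → ℂ) + classInner Q R := fun Q => by
      rw [classInner_comm _ Q, classInner_add_left, map_add, ← classInner_comm, ← classInner_comm]
    rw [classInner_add_left, hr, hr, classInner_self χ.2, hk, hk', hn]
    push_cast
    ring
  rw [hexp] at h2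
  have h2' : 1 + k + (k + n) = 2 := by exact_mod_cast h2
  have hk0 : k = 0 := by omega
  have hn1 : n = 1 := by omega
  refine ⟨χ, ⟨R, isIrr_of_norm_one hR (by rw [hn, hn1, Nat.cast_one])⟩, fun e => ?_, rfl⟩
  have e' : (χ : G → ℂ) = R := congrArg Subtype.val e
  rw [← e', classInner_self χ.2, hk0] at hk
  norm_num at hk

/-- A real class function of odd sum over a group of odd order has odd value at 1. -/
theorem odd_of_sum {K : Type*} [Group K] [Finite K] [Fintype K] (hK : ∀ y : K, y⁻¹ = y → y = 1) (f : K → ℂ)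
    (hf : ∀ y, IsIntegral ℤ (f y)) (hsym : ∀ y, f y⁻¹ = f y) {n N : ℕ} (h1 : f 1 = n) (hN : Odd N)
    (hs : ∑ y, f y = N) : Odd n := by
  classical
  let e := Fintype.equivFin K
  set P := Finset.univ.filter fun y : K => e y < e y⁻¹ with hP
  set Q := Finset.univ.filter fun y : K => e y⁻¹ < e y with hQ
  have hQP : ∑ y ∈ Q, f y = ∑ y ∈ P, f y :=
    Finset.sum_bij (fun y _ => y⁻¹) (fun y hy => by simpa [P, Q] using hy)
      (fun _ _ _ _ h => inv_injective h) (fun y hy => ⟨y⁻¹, by simpa [P, Q] using hy, inv_inv y⟩)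
      (fun y _ => (hsym y).symm)
  have hsplit : ∑ y, f y = f 1 + (∑ y ∈ P, f y + ∑ y ∈ Q, f y) := by
    rw [← Finset.sum_union (Finset.disjoint_filter.2 fun y _ h1 h2 => lt_asymm h1 h2),
      ← Finset.add_sum_erase Finset.univ f (Finset.mem_univ 1)]
    refine congrArg _ (Finset.sum_congr ?_ fun _ _ => rfl)
    ext y
    simp only [Finset.mem_erase, Finset.mem_univ, and_true, Finset.mem_union, P, Q, Finset.mem_filter, true_and]
    constructor
    · intro hy
      exact lt_or_gt_of_ne fun h => hy (hK y (e.injective h).symm)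
    · rintro (h | h) rfl <;> simp at h
  rw [hQP, h1, hs] at hsplit
  have hint : IsIntegral ℤ (∑ y ∈ P, f y) := IsIntegral.sum _ fun y _ => hf y
  by_contra hn
  rw [Nat.not_odd_iff_even] at hn
  obtain ⟨a, rfl⟩ := hn
  obtain ⟨b, rfl⟩ := hN
  have hval : ∑ y ∈ P, f y = ((b : ℤ) - a : ℤ) + (2 : ℂ)⁻¹ := by
    push_cast at hsplit ⊢
    linear_combination -(2 : ℂ)⁻¹ * hsplit
  have h12 : IsIntegral ℤ ((2 : ℂ)⁻¹) := by
    have := hint.sub (isIntegral_algebraMap (R := ℤ) (A := ℂ) (x := (b : ℤ) - a))
    rw [hval] at this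
    simpa using this
  rw [show ((2 : ℂ)⁻¹) = algebraMap ℚ ℂ (1 / 2) by simp,
    isIntegral_algebraMap_iff (algebraMap ℚ ℂ).injective] at h12
  obtain ⟨k, hk⟩ := IsIntegrallyClosed.isIntegral_iff.1 h12
  have : (k : ℚ) = 1 / 2 := by simpa using hk
  have h2 : ((2 * k : ℤ) : ℚ) = ((1 : ℤ) : ℚ) := by push_cast; rw [this]; norm_num
  have : 2 * k = 1 := by exact_mod_cast h2
  omega

theorem block_arith : ∀ c < 78, ∀ e < 78,
    ((c % 7 = 1 ∧ e % 7 = 3 ∧ c = 26 + e) ∨ (c % 7 = 1 ∧ e % 7 = 4 ∧ c + e = 26) ∨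
      (c % 7 = 6 ∧ e % 7 = 4 ∧ e = 26 + c)) → 6048 % c = 0 → 6048 % e = 0 → c % 6 = 0 ∨ e % 6 = 0 := by
  intro c hc e he h h1 h2
  rcases h with ⟨a, b, r⟩ | ⟨a, b, r⟩ | ⟨a, b, r⟩
  all_goals (interval_cases c <;> first | omega | (interval_cases e <;> omega))

theorem degree_lt (hc : Nat.card G = 6048) (χ : IrrCharacter G) : charDegree (χ : G → ℂ) < 78 := by
  classical
  haveI := Fintype.ofFinite (IrrCharacter G)
  have h := sum_sq_degree (G := G)
  have h1 := Finset.single_le_sum (s := Finset.univ) (f := fun ψ : IrrCharacter G => charDegree (ψ : G → ℂ) ^ 2)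
    (fun _ _ => Nat.zero_le _) (Finset.mem_univ χ)
  rw [h, hc] at h1
  nlinarith

include D in
theorem eq_one_of_degree_one {χ : IrrCharacter G} (h : charDegree (χ : G → ℂ) = 1) (g : G) :
    (χ : G → ℂ) g = 1 := by
  obtain ⟨f, hf⟩ := CfsgLib.Clifford.exists_hom_of_linear (isCharacter_of_irr χ.2) (by rw [apply_one (isCharacter_of_irr χ.2), h, Nat.cast_one])
  have hker : commutator G ≤ f.toHomUnits.ker := Abelianization.commutator_subset_ker f.toHomUnits
  rw [D.perfect] at hker
  rw [congrFun hf g]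
  exact congrArg Units.val (MonoidHom.mem_ker.1 (hker (Subgroup.mem_top g)))

include hF D in
theorem triangle : HasTriangle G := by
  classical
  haveI : Fintype D.B := Fintype.ofFinite _
  haveI : Fintype (IrrCharacter G) := Fintype.ofFinite _
  obtain ⟨z, h8, hker, h5, ⟨t, htT, ht4⟩, hsq⟩ := D.exists_z hF
  have hchar : ∀ i, IsCharacter G (indFun D.B (fun y => (z ^ i) y)) := fun i =>
    isCharacter_indFun _ (CfsgLib.Clifford.isCharacter_of_hom _)
  have hdeg : ∀ i, indFun D.B (fun y => (z ^ i) y) 1 = 28 := fun i => by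
    rw [indFun_apply_one, D.index, map_one, mul_one]; norm_num
  have hpw : ∀ n, z t ^ (n + 8) = z t ^ n := fun n => by rw [pow_add, h8, mul_one]
  have hb4 : z t ^ 4 ≠ 1 := by rw [ht4]; norm_num
  have hb2 : z t ^ 2 ≠ 1 := fun e => hb4 (by rw [show (4 : ℕ) = 2 * 2 from rfl, pow_mul, e, one_pow])
  have h14 : ∃ d ∈ charDegrees G, 14 ∣ d := by
    have hn := D.inner_pow h8 h5 htT ht4 1 1
    rw [if_pos (show z t ^ (1 + 7 * 1) = 1 from h8 t), if_neg (show ¬ z t ^ (1 + 3 * 1) = 1 from hb4), add_zero] at hn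
    have hirr := isIrr_of_norm_one (hchar 1) hn
    refine ⟨28, ⟨⟨_, hirr⟩, ?_⟩, by norm_num⟩
    exact_mod_cast (apply_one (hchar 1)).symm.trans (hdeg 1)
  have h27 : ∃ χ : IrrCharacter G, charDegree (χ : G → ℂ) = 27 := by
    have hn := D.inner_pow h8 h5 htT ht4 0 0
    norm_num at hn
    obtain ⟨χ₁, χ₂, hne, hsum⟩ := split_norm_two (hchar 0) (by simpa using hn)
    have h1 : classInner (indFun D.B (fun y => (z ^ 0) y)) (fun _ : G => (1 : ℂ)) = 1 := by
      rw [classInner_indFun D.B _ (isClassFunction (isCharacter_of_irr isIrrCharacter_one))]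
      simp [classInner_eq, D.card_B, ← Nat.card_eq_fintype_card]
    have hval := congrFun hsum 1
    rw [hdeg, Pi.add_apply, apply_one (isCharacter_of_irr χ₁.2), apply_one (isCharacter_of_irr χ₂.2)] at hval
    have hval' : charDegree (χ₁ : G → ℂ) + charDegree (χ₂ : G → ℂ) = 28 := by exact_mod_cast hval.symm
    rw [hsum, classInner_add_left] at h1
    have e1 := classInner_irr χ₁ oneChar
    have e2 := classInner_irr χ₂ oneChar
    change classInner (χ₁ : G → ℂ) (fun _ => 1) = _ at e1
    change classInner (χ₂ : G → ℂ) (fun _ => 1) = _ at e2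
    rw [e1, e2] at h1
    have hone : charDegree (oneChar : IrrCharacter G).1 = 1 := by
      have := apply_one (isCharacter_of_irr (oneChar (G := G)).2)
      rw [oneChar_apply] at this
      exact_mod_cast this.symm
    by_cases c1 : χ₁ = oneChar
    · exact ⟨χ₂, by rw [c1, hone] at hval'; omega⟩
    · by_cases c2 : χ₂ = oneChar
      · exact ⟨χ₁, by rw [c2, hone] at hval'; omega⟩
      · simp [c1, c2] at h1
  have h21 : ∃ d ∈ charDegrees G, 21 ∣ d := by
    set P := indFun D.B (fun y => (z ^ 4) y) with hP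
    have hn := D.inner_pow h8 h5 htT ht4 4 4
    rw [if_pos (show z t ^ (4 + 7 * 4) = 1 by rw [show 4 + 7 * 4 = 8 * 4 by norm_num, pow_mul, h8, one_pow]),
      if_pos (show z t ^ (4 + 3 * 4) = 1 by rw [show 4 + 3 * 4 = 8 * 2 by norm_num, pow_mul, h8, one_pow])] at hn
    obtain ⟨χ₁, χ₂, hne, hsum⟩ := split_norm_two (hchar 4) (by rw [hn]; norm_num)
    rw [← hP] at hsum
    have hl : ∀ y : D.B, (z ^ 4) y = 1 ∨ (z ^ 4) y = -1 := fun y => by
      rw [MonoidHom.pow_apply, ← sq_eq_one_iff, ← pow_mul]
      exact h8 y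
    -- indicator of `P` is not zero
    have hext : ∀ g : G, extendByZero D.B (fun y => (z ^ 4) y) (g * g) = if g * g ∈ D.B then 1 else 0 := by
      intro g
      split_ifs with h
      · rw [CfsgLib.IndFun.extendByZero_mem _ h, MonoidHom.pow_apply]
        by_cases hg : g ∈ D.B
        · rw [show (⟨g * g, h⟩ : D.B) = ⟨g, hg⟩ * ⟨g, hg⟩ from rfl, map_mul, ← pow_two, ← pow_mul]
          exact h8 _
        · exact hsq g hg h
      · exact CfsgLib.IndFun.extendByZero_not_mem _ h
    have hsum2 : ∑ s : G, P (s * s) ≠ 0 := by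
      have e : ∑ s : G, P (s * s) = (Nat.card D.B : ℂ)⁻¹ * ((Nat.card G : ℂ) *
          ∑ g : G, extendByZero D.B (fun y => (z ^ 4) y) (g * g)) := by
        simp only [hP, indFun, ← Finset.mul_sum]
        rw [Finset.sum_comm, Finset.sum_congr rfl (g := fun _ => ∑ g : G, extendByZero D.B (fun y => (z ^ 4) y) (g * g))
          (fun x _ => Fintype.sum_equiv (MulAut.conj x⁻¹).toEquiv _ _ fun s => by simp [mul_assoc]),
          Finset.sum_const, nsmul_eq_mul, Finset.card_univ, ← Nat.card_eq_fintype_card]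
      rw [e]
      refine mul_ne_zero (inv_ne_zero (Nat.cast_ne_zero.2 Nat.card_pos.ne'))
        (mul_ne_zero (Nat.cast_ne_zero.2 Nat.card_pos.ne') ?_)
      rw [Finset.sum_congr rfl fun g _ => hext g, ← Finset.sum_filter, Finset.sum_const, nsmul_eq_mul, mul_one]
      exact Nat.cast_ne_zero.2 (Finset.card_pos.2 ⟨1, by simp⟩).ne'
    have hPreal : ∀ g, conj (P g) = P g := by
      intro g
      simp only [hP, indFun, map_mul, map_inv₀, Complex.conj_natCast, map_sum]
      refine congrArg _ (Finset.sum_congr rfl fun x _ => ?_)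
      by_cases h : x⁻¹ * g * x ∈ D.B
      · rw [CfsgLib.IndFun.extendByZero_mem _ h]
        rcases hl ⟨_, h⟩ with e | e <;> rw [e] <;> simp
      · rw [CfsgLib.IndFun.extendByZero_not_mem _ h, map_zero]
    have hreal : ∀ g, conj ((χ₁ : G → ℂ) g) = (χ₁ : G → ℂ) g := by
      have hc : IsIrrCharacter G (fun g => conj ((χ₁ : G → ℂ) g)) := by
        refine isIrr_of_norm_one (isCharacter_star (isCharacter_of_irr χ₁.2)) ?_
        have := congrArg conj (classInner_self χ₁.2)
        rw [map_one, classInner_eq, map_mul, map_inv₀, Complex.conj_natCast, map_sum] at this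
        rw [classInner_eq]
        simpa [map_mul] using this
      have hmem : (⟨_, hc⟩ : IrrCharacter G) = χ₁ ∨ (⟨_, hc⟩ : IrrCharacter G) = χ₂ := by
        by_contra hno
        push Not at hno
        have e : classInner P (χ₁ : G → ℂ) = 1 := by
          rw [hsum, classInner_add_left, classInner_irr, classInner_irr, if_pos rfl, if_neg hne.symm, add_zero]
        have e2 : classInner P (fun g => conj ((χ₁ : G → ℂ) g)) = 1 := by
          have := congrArg conj e
          rw [map_one, classInner_eq, map_mul, map_inv₀, Complex.conj_natCast, map_sum] at this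
          rw [classInner_eq]
          simpa [map_mul, hPreal] using this
        rw [hsum, classInner_add_left,
          show classInner (χ₁ : G → ℂ) (fun g => conj ((χ₁ : G → ℂ) g)) = 0 from classInner_ne χ₁.2 hc fun h =>
            hno.1 (Subtype.ext h.symm),
          show classInner (χ₂ : G → ℂ) (fun g => conj ((χ₁ : G → ℂ) g)) = 0 from classInner_ne χ₂.2 hc fun h =>
            hno.2 (Subtype.ext h.symm)] at e2
        norm_num at e2
      rcases hmem with h | h
      · exact fun g => congrFun (congrArg Subtype.val h) g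
      · exfalso
        have him : ∃ g, ((χ₁ : G → ℂ) g).im ≠ 0 := by
          by_contra hno
          push Not at hno
          apply hne
          rw [← h]
          exact Subtype.ext (funext fun g => (Complex.conj_eq_iff_im.2 (hno g)).symm)
        obtain ⟨g, hg⟩ := him
        have i1 := (CfsgLib.BrauerInd.fs_trichotomy χ₁.2).2.2 ⟨g, hg⟩
        have i2 : CfsgLib.BrauerInd.ind (χ₂ : G → ℂ) = 0 := by
          refine (CfsgLib.BrauerInd.fs_trichotomy χ₂.2).2.2 ⟨g, ?_⟩
          rw [show (χ₂ : G → ℂ) = fun g => conj ((χ₁ : G → ℂ) g) from (congrArg Subtype.val h).symm]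
          simpa using hg
        apply hsum2
        simp only [CfsgLib.BrauerInd.ind, mul_eq_zero, inv_eq_zero, Nat.cast_eq_zero, Nat.card_pos.ne',
          false_or] at i1 i2
        rw [hsum]
        simp only [Pi.add_apply, Finset.sum_add_distrib]
        rw [i1, i2, add_zero]
    -- parity
    have hpar : Odd (charDegree (χ₁ : G → ℂ)) := by
      let K : Subgroup D.B := z.ker
      haveI : Fintype K := Fintype.ofFinite _
      have hin : ∀ j < 8, classInner (fun y => (z ^ j) y) (fun y : D.B => (χ₁ : G → ℂ) y) = if j = 4 then 1 else 0 := by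
        intro j hj
        rw [← classInner_indFun D.B _ (isClassFunction (isCharacter_of_irr χ₁.2))]
        split_ifs with h4
        · subst h4
          show classInner P (χ₁ : G → ℂ) = 1
          rw [hsum, classInner_add_left, classInner_irr, classInner_irr, if_pos rfl, if_neg hne.symm, add_zero]
        · have h0 : classInner (indFun D.B (fun y => (z ^ j) y)) P = 0 := by
            rw [hP, D.inner_pow h8 h5 htT ht4 j 4, if_neg, if_neg, add_zero]
            · intro e
              rw [show j + 3 * 4 = (j + 4) + 8 by ring, hpw] at e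
              have := dvd_of_root ht4 e
              omega
            · intro e
              have := dvd_of_root ht4 e
              omega
          obtain ⟨m₁, hm₁⟩ := classInner_character_nat (hchar j) χ₁
          obtain ⟨m₂, hm₂⟩ := classInner_character_nat (hchar j) χ₂
          rw [hsum, classInner_comm, classInner_add_left, map_add, ← classInner_comm, ← classInner_comm, hm₁, hm₂] at h0
          have : m₁ + m₂ = 0 := by exact_mod_cast h0
          rw [hm₁, show m₁ = 0 by omega, Nat.cast_zero]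
      have hind : ∀ y : D.B, ∑ j ∈ Finset.range 8, (z ^ j) y = if y ∈ K then 8 else 0 := by
        intro y
        split_ifs with hy
        · simp [MonoidHom.pow_apply, show z y = 1 from hy]
        · have hne1 : z y ≠ 1 := hy
          simp only [MonoidHom.pow_apply]
          rw [geom_sum_eq hne1, h8, sub_self, zero_div]
      have hK : ∑ y : K, (χ₁ : G → ℂ) ((y : D.B) : G) = 27 := by
        have e : ∑ y : D.B, (∑ j ∈ Finset.range 8, (z ^ j) y) * conj ((χ₁ : G → ℂ) y) = 216 := by
          simp only [Finset.sum_mul]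
          rw [Finset.sum_comm, Finset.sum_congr rfl (g := fun j => if j = 4 then (216 : ℂ) else 0) (fun j hj => ?_)]
          · simp
          · have := hin j (Finset.mem_range.1 hj)
            rw [classInner_eq, inv_mul_eq_iff_eq_mul₀ (Nat.cast_ne_zero.2 Nat.card_pos.ne'), D.card_B] at this
            rw [this]
            split_ifs <;> norm_num
        rw [Finset.sum_congr rfl (g := fun y : D.B => if y ∈ K then 8 * (χ₁ : G → ℂ) y else 0)
          (fun y _ => by rw [hind, hreal]; split_ifs <;> simp), ← Finset.sum_filter, ← Finset.mul_sum,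
          Finset.sum_subtype (Finset.univ.filter fun y => y ∈ K) (p := fun y => y ∈ K) (fun y => by simp)] at e
        linear_combination (1 / 8 : ℂ) * e
      refine odd_of_sum (K := K) (fun y hy => ?_) (fun y => (χ₁ : G → ℂ) ((y : D.B) : G))
        (fun y => isIntegral_apply (isCharacter_of_irr χ₁.2) _)
        (fun y => ?_) (n := charDegree (χ₁ : G → ℂ)) (N := 27) ?_ ⟨13, rfl⟩ (by rw [hK]; norm_num)
      · have hsurj : ∀ j < 8, ∃ b : D.B, z b = z t ^ j := fun j _ => ⟨t ^ j, map_pow z t j⟩
        have hrange : (Set.range z).ncard = 8 := by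
          apply le_antisymm
          · have : (Set.range z) ⊆ ↑(Polynomial.nthRoots 8 (1 : ℂ)).toFinset := by
              rintro _ ⟨b, rfl⟩
              simp [h8]
            have hle := Set.ncard_le_ncard this
            rw [Set.ncard_coe_finset] at hle
            exact hle.trans ((Multiset.toFinset_card_le _).trans (Polynomial.card_nthRoots 8 1))
          · let f : Fin 8 → Set.range z := fun j => ⟨z t ^ (j : ℕ), t ^ (j : ℕ), map_pow z t j⟩
            have hf : Function.Injective f := by
              intro i j e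
              have e' : z t ^ (i : ℕ) = z t ^ (j : ℕ) := congrArg Subtype.val e
              have e2 : z t ^ ((i : ℕ) + 7 * (j : ℕ)) = 1 := by
                rw [pow_add, e', ← pow_add, show (j : ℕ) + 7 * j = 8 * j by ring, pow_mul, h8, one_pow]
              have h3 : ((i : ℕ) + 7 * (j : ℕ)) % 8 = 0 := by
                have := dvd_of_root ht4 e2
                omega
              exact Fin.ext (by omega)
            haveI : Finite (Set.range z) := Finite.of_fintype _
            rw [← Nat.card_coe_set_eq]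
            simpa using Nat.card_le_card_of_injective f hf
        have hKc : Nat.card K = 27 := by
          have hKu : K = z.toHomUnits.ker := by
            ext b
            simp [K, MonoidHom.mem_ker, Units.ext_iff]
          have hcard : Nat.card z.toHomUnits.range = 8 := by
            rw [← hrange, ← SetLike.coe_sort_coe, Nat.card_coe_set_eq,
              ← Set.ncard_image_of_injective _ Units.val_injective]
            congr 1
            ext c
            simp
          have h1 := K.card_mul_index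
          rw [show K.index = 8 by rw [hKu, Subgroup.index_ker, hcard], D.card_B] at h1
          omega
        have h2 : orderOf y ∣ 2 := orderOf_dvd_of_pow_eq_one (by rw [pow_two]; nth_rewrite 1 [← hy]; exact inv_mul_cancel y)
        have h3 : orderOf y ∣ 27 := hKc ▸ orderOf_dvd_natCard y
        have := Nat.dvd_gcd h2 h3
        norm_num at this
        exact this
      · show (χ₁ : G → ℂ) (((y⁻¹ : K) : D.B) : G) = _
        rw [Subgroup.coe_inv, Subgroup.coe_inv, apply_inv (isCharacter_of_irr χ₁.2), hreal]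
      · simpa using apply_one (isCharacter_of_irr χ₁.2)
    have hval := congrFun hsum 1
    rw [show P 1 = 28 from hdeg 4, Pi.add_apply, apply_one (isCharacter_of_irr χ₁.2), apply_one (isCharacter_of_irr χ₂.2)] at hval
    have hval' : charDegree (χ₁ : G → ℂ) + charDegree (χ₂ : G → ℂ) = 28 := by exact_mod_cast hval.symm
    have hnl : ∀ χ : IrrCharacter G, classInner P (χ : G → ℂ) ≠ 0 → charDegree (χ : G → ℂ) ≠ 1 := by
      intro χ hχ hd
      apply hχ
      rw [show (χ : G → ℂ) = fun _ => 1 from funext (D.eq_one_of_degree_one hd), hP,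
        classInner_indFun D.B _ (isClassFunction (isCharacter_of_irr isIrrCharacter_one)), classInner_one,
        sum_hom_eq_zero (z ^ 4) (t := t) (by rwa [MonoidHom.pow_apply]), mul_zero]
    have d1 := D.card ▸ degree_dvd χ₁
    have d2 := D.card ▸ degree_dvd χ₂
    have n1 : charDegree (χ₁ : G → ℂ) ≠ 1 := hnl χ₁ (by
      rw [hsum, classInner_add_left, classInner_irr, classInner_irr, if_pos rfl, if_neg hne.symm]; norm_num)
    have n2 : charDegree (χ₂ : G → ℂ) ≠ 1 := hnl χ₂ (by
      rw [hsum, classInner_add_left, classInner_irr, classInner_irr, if_pos rfl, if_neg hne]; norm_num)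
    have key : ∀ a < 28, 6048 % a = 0 → 6048 % (28 - a) = 0 → a % 2 = 1 → a ≠ 1 → 28 - a ≠ 1 →
        a = 21 ∨ 28 - a = 21 := by
      intro a ha h1 h2 h3 h4 h5
      interval_cases a <;> omega
    have p2 := charDegree_pos χ₂.2
    rcases key _ (by omega) (Nat.mod_eq_zero_of_dvd d1)
      (by rw [show 28 - charDegree (χ₁ : G → ℂ) = charDegree (χ₂ : G → ℂ) by omega]; exact Nat.mod_eq_zero_of_dvd d2)
      (Nat.odd_iff.1 hpar) n1 (by omega) with h | h
    · exact ⟨21, ⟨χ₁, h⟩, dvd_rfl⟩
    · exact ⟨21, ⟨χ₂, by omega⟩, dvd_rfl⟩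
  have h6 : ∃ d ∈ charDegrees G, 6 ∣ d := by
    obtain ⟨χ27, h27⟩ := h27
    haveI : Fact (Nat.Prime 7) := ⟨by norm_num⟩
    obtain ⟨M, hM⟩ := CfsgLib.Blocks.exists_modular (p := 7) (by norm_num)
    obtain ⟨P⟩ : Nonempty (Sylow 7 G) := Sylow.nonempty
    have hPc : Nat.card P = 7 := by
      rw [P.card_eq_multiplicity, D.card]
      rw [show 6048 = 7 ^ 1 * 864 by norm_num, Nat.factorization_mul (by norm_num) (by norm_num)]
      simp [Nat.Prime.factorization (show Nat.Prime 7 by norm_num),
        Nat.factorization_eq_zero_of_not_dvd (show ¬ 7 ∣ 864 by norm_num)]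
    obtain ⟨Dd, hDd⟩ := CfsgLib.DefectOne.exists_data P hPc
    have hC : Nat.card (Subgroup.centralizer (Subgroup.zpowers Dd.x : Set G)) = 7 := by
      have h7 : ∀ r : ℕ, r.Prime → r ∣ Nat.card (Subgroup.centralizer (Subgroup.zpowers Dd.x : Set G)) → r = 7 := by
        intro r hr hd
        haveI := Fact.mk hr
        obtain ⟨y, hy⟩ := exists_prime_orderOf_dvd_card' r hd
        rw [← Subgroup.orderOf_coe] at hy
        have hcom : Commute Dd.x (y : G) := Subgroup.mem_centralizer_iff.1 y.2 _ (Subgroup.mem_zpowers _)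
        have h0 := hd.trans (Subgroup.card_subgroup_dvd_card _)
        rw [D.card] at h0
        rcases prime_dvd_6048 hr h0 with rfl | rfl | rfl
        · exact absurd hcom (D.cent _ _ Dd.hx (Or.inl hy))
        · exact absurd hcom (D.cent _ _ Dd.hx (Or.inr hy))
        · rfl
      have hd : Nat.card (Subgroup.centralizer (Subgroup.zpowers Dd.x : Set G)) = 7 * Nat.card Dd.V :=
        Dd.card_centralizer
      by_contra hne7
      obtain ⟨r, hr, hrd⟩ := Nat.exists_prime_and_dvd (n := Nat.card Dd.V) (by omega)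
      have := h7 r hr (hd ▸ Dvd.dvd.mul_left hrd 7)
      subst this
      exact Dd.hHp (hrd.trans (Subgroup.card_subgroup_dvd_card _))
    have hV : Nat.card Dd.V = 1 := by
      have := Dd.card_centralizer
      rw [hC] at this
      omega
    have hsub : ∀ φ : IrrCharacter Dd.V, φ = Dd.one := by
      haveI : Subsingleton (IrrCharacter Dd.V) := by
        refine Finite.card_le_one_iff_subsingleton.1 ?_
        rw [card_irr]
        exact (Nat.card_le_card_of_surjective _ ConjClasses.mk_surjective).trans hV.le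
      exact fun φ => Subsingleton.elim _ _
    have hblk : ∀ χ : IrrCharacter G, ¬ 7 ∣ charDegree (χ : G → ℂ) → χ ∈ principalBlock M G := by
      intro χ hχ
      rw [Dd.principalBlock_eq hM]
      obtain ⟨φ, hφ⟩ := (Dd.dvd_deg_iff hM χ).1 hχ
      rwa [hsub φ] at hφ
    set e := (Subgroup.centralizer ((P : Subgroup G) : Set G)).relIndex (Subgroup.normalizer ((P : Subgroup G) : Set G)) with he
    obtain ⟨X, Y, hU, -, hX, hY, εX, ε, hXs, hε, hYc, -, hrel⟩ := Cfsg.Agent.S4441.result 7 M hM (by norm_num) P hPc e he.symm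
    have he3 : e = 3 := by
      have hle : e ≤ 6 := by
        rw [he, ← hDd, Dd.relIndex_eq, ← Dd.card_U_one]
        exact Nat.le_of_dvd (by norm_num) (Dd.card_U_dvd Dd.one)
      have hmul : Nat.card (Sylow 7 G) * (7 * e) = 6048 := by
        rw [he, ← D.card, P.card_eq_index_normalizer]
        have hN := Subgroup.card_mul_index (Subgroup.normalizer ((P : Subgroup G) : Set G))
        have hCN := (Subgroup.centralizer ((P : Subgroup G) : Set G)).subgroupOf
          (Subgroup.normalizer ((P : Subgroup G) : Set G)) |>.card_mul_index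
        rw [Nat.card_congr (Subgroup.subgroupOfEquivOfLe (Subgroup.centralizer_le_normalizer ((P : Subgroup G) : Set G))).toEquiv,
          ← hDd, hC] at hCN
        rw [show Subgroup.normalizer (P : Set G) = Subgroup.normalizer ((P : Subgroup G) : Set G) from rfl]
        rw [← hDd] at hN ⊢
        rw [Subgroup.relIndex, ← hN, ← hCN]
        ring
      have hmod := card_sylow_modEq_one 7 G
      rw [Nat.ModEq] at hmod
      interval_cases e <;> omega
    have hone : (oneChar : IrrCharacter G) ∈ X := by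
      have h1 : charDegree (oneChar : IrrCharacter G).1 = 1 := by
        have := apply_one (isCharacter_of_irr (oneChar (G := G)).2)
        rw [oneChar_apply] at this
        exact_mod_cast this.symm
      rcases (hU ▸ hblk oneChar (by rw [h1]; norm_num) : (oneChar : IrrCharacter G) ∈ X ∪ Y) with h | h
      · exact h
      · have := hYc _ h
        rw [h1, he3] at this
        rcases hε with e' | e' <;> rw [e'] at this <;> norm_num [Int.ModEq] at this
    have h27X : χ27 ∈ X := by
      rcases (hU ▸ hblk χ27 (by rw [h27]; norm_num) : χ27 ∈ X ∪ Y) with h | h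
      · exact h
      · have := hYc _ h
        rw [h27, he3] at this
        rcases hε with e' | e' <;> rw [e'] at this <;> norm_num [Int.ModEq] at this
    have hne : (oneChar : IrrCharacter G) ≠ χ27 := by
      intro h
      have := apply_one (isCharacter_of_irr (oneChar (G := G)).2)
      rw [oneChar_apply, h, h27] at this
      norm_num at this
    haveI : Fintype X := Fintype.ofFinite _
    have hX3 : X.toFinset.card = 3 := by rw [Set.toFinset_card, ← Nat.card_eq_fintype_card, hX, he3]
    obtain ⟨χc, hχc⟩ : ∃ χc, ((X.toFinset.erase oneChar).erase χ27) = {χc} := Finset.card_eq_one.1 (by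
      rw [Finset.card_erase_of_mem (by simp [hne.symm, h27X]), Finset.card_erase_of_mem (by simpa using hone), hX3])
    have hcX : χc ∈ X := by
      have : χc ∈ (X.toFinset.erase oneChar).erase χ27 := by rw [hχc]; exact Finset.mem_singleton_self _
      simpa using (Finset.mem_erase.1 (Finset.mem_erase.1 this).2).2
    obtain ⟨θ, hθ⟩ : Y.Nonempty := by
      rw [← Set.nonempty_coe_sort]
      exact (Nat.card_pos_iff.1 (by rw [hY, he3]; norm_num)).1
    have hr := hrel θ hθ 1 (by rw [orderOf_one]; norm_num)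
    rw [finsum_mem_eq_toFinset_sum, ← Finset.add_sum_erase _ _ (Set.mem_toFinset.2 hone),
      ← Finset.add_sum_erase _ _ (show χ27 ∈ X.toFinset.erase oneChar by simp [hne.symm, h27X]), hχc,
      Finset.sum_singleton, oneChar_apply, apply_one (isCharacter_of_irr χ27.2), h27,
      apply_one (isCharacter_of_irr θ.2), apply_one (isCharacter_of_irr χc.2)] at hr
    have hr' : ε * (charDegree (θ : G → ℂ) : ℤ) = εX oneChar * 1 + (εX χ27 * 27 + εX χc * charDegree (χc : G → ℂ)) := by
      exact_mod_cast hr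
    have e1 : εX oneChar = 1 := by
      have h := (hXs _ hone).2.1
      have h1 : charDegree (oneChar : IrrCharacter G).1 = 1 := by
        have := apply_one (isCharacter_of_irr (oneChar (G := G)).2)
        rw [oneChar_apply] at this
        exact_mod_cast this.symm
      rw [h1] at h
      rcases (hXs _ hone).1 with e' | e'
      · exact e'
      · rw [e'] at h; norm_num [Int.ModEq] at h
    have e27 : εX χ27 = -1 := by
      have h := (hXs _ h27X).2.1
      rw [h27] at h
      rcases (hXs _ h27X).1 with e' | e'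
      · rw [e'] at h; norm_num [Int.ModEq] at h
      · exact e'
    have hcc := (hXs _ hcX).2.1
    have hth := hYc _ hθ
    rw [he3] at hth
    rw [Int.ModEq] at hcc hth
    rw [e1, e27] at hr'
    have hdc := Nat.mod_eq_zero_of_dvd (D.card ▸ degree_dvd χc)
    have hdt := Nat.mod_eq_zero_of_dvd (D.card ▸ degree_dvd θ)
    have key := block_arith _ (degree_lt D.card χc) _ (degree_lt D.card θ) (by
      rcases (hXs _ hcX).1 with e' | e' <;> rcases hε with e'' | e'' <;> rw [e'] at hr' hcc <;>
        rw [e''] at hr' hth <;> omega) hdc hdt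
    rcases key with k | k
    · exact ⟨_, ⟨χc, rfl⟩, Nat.dvd_of_mod_eq_zero k⟩
    · exact ⟨_, ⟨θ, rfl⟩, Nat.dvd_of_mod_eq_zero k⟩
  exact ⟨h6, h14, h21⟩

end UData

end CfsgLib.DegGraph
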