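import Cfsg.Agent.DegGraph.U33Chars
import Cfsg.Agent.UGeom.Simple
import Cfsg.Agent.UGeom.Center

/-!
`SU(3,3)` on its 28 isotropic points.
-/

set_option autoImplicit false
set_option linter.unusedSectionVars false

namespace CfsgLib.DegGraph

open Matrix MulAction CfsgLib.UGeom

variable {F : Type*} [Field F] [Fintype F]

local notation "H" => Cfsg.hermForm 3 F 3
local notation "V₃" => (Fin 3 → F)
local notation "SU₃" => Cfsg.SU 3 F 3
local notation "mat" A:max => (((A : SU₃) : Matrix.SpecialLinearGroup (Fin 3) F) : Matrix (Fin 3) (Fin 3) F)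

theorem exists_span_perp (C : Conj F 3) {v u : V₃} (hv : v ≠ 0) (hu : ∀ a : F, a • v ≠ u) :
    ∃ z : V₃, z ≠ 0 ∧ H z v = 0 ∧ H z u = 0 ∧ ∀ x, H x v = 0 → H x u = 0 → ∃ c : F, c • z = x := by
  let ψ : V₃ →ₗ[F] F × F :=
    { toFun := fun x => (H x v, H x u)
      map_add' := fun a b => Prod.ext (form_add_left a b v) (form_add_left a b u)
      map_smul' := fun a b => Prod.ext (form_smul_left a b v) (form_smul_left a b u) }
  obtain ⟨y₀, hy₀, hy₀'⟩ := exists_dual_pair C hv hu 0
  obtain ⟨y₁, hy₁, hy₁'⟩ := exists_dual_pair C hv hu 1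
  have hsurj : Function.Surjective ψ := by
    rintro ⟨a, b⟩
    refine ⟨(a - b) • y₀ + b • y₁, Prod.ext ?_ ?_⟩
    · show H ((a - b) • y₀ + b • y₁) v = a
      rw [form_add_left, form_smul_left, form_smul_left, hy₀, hy₁]; ring
    · show H ((a - b) • y₀ + b • y₁) u = b
      rw [form_add_left, form_smul_left, form_smul_left, hy₀', hy₁']; ring
  have hk := LinearMap.finrank_range_add_finrank_ker ψ
  rw [LinearMap.range_eq_top.2 hsurj, finrank_top, Module.finrank_prod, Module.finrank_self,
    Module.finrank_fin_fun] at hk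
  obtain ⟨⟨z, hz⟩, hz0, hzs⟩ := finrank_eq_one_iff'.1 (show Module.finrank F (LinearMap.ker ψ) = 1 by omega)
  have hz' : H z v = 0 ∧ H z u = 0 := Prod.ext_iff.1 (LinearMap.mem_ker.1 hz)
  refine ⟨z, fun e => hz0 (Subtype.ext e), hz'.1, hz'.2, fun x hx hx' => ?_⟩
  obtain ⟨c, hc⟩ := hzs ⟨x, LinearMap.mem_ker.2 (Prod.ext hx hx')⟩
  exact ⟨c, congrArg Subtype.val hc⟩

theorem form_ne_zero_of_iso (C : Conj F 3) {v u : V₃} (hv : v ≠ 0) (hvv : H v v = 0) (huu : H u u = 0)
    (hu : ∀ a : F, a • v ≠ u) : H u v ≠ 0 := by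
  intro h
  have h' : H v u = 0 := by rw [← form_conj C, h, map_zero]
  obtain ⟨z, -, -, -, hz⟩ := exists_span_perp C hv hu
  obtain ⟨c, hc⟩ := hz v hvv h'
  obtain ⟨d, hd⟩ := hz u h huu
  have hc0 : c ≠ 0 := fun e => hv (by rw [← hc, e, zero_smul])
  exact hu (d / c) (by rw [← hc, smul_smul, div_mul_cancel₀ _ hc0, hd])

theorem card_field (C : Conj F 3) : Fintype.card F = 9 := by rw [C.card]; norm_num

theorem three_eq_zero (C : Conj F 3) : (3 : F) = 0 := by
  have h : ((9 : ℕ) : F) = 0 := by rw [← card_field C]; exact FiniteField.cast_card_eq_zero F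
  have h' : (3 : F) * 3 = 0 := by push_cast at h; linear_combination h
  exact mul_self_eq_zero.1 h'

theorem pow_eight (C : Conj F 3) {a : F} (ha : a ≠ 0) : a ^ 8 = 1 := by
  have := FiniteField.pow_card_sub_one_eq_one a ha
  rwa [card_field C] at this

theorem card_iso (C : Conj F 3) : Nat.card (Iso 3 F 3) = 28 := by
  classical
  let I := {v : V₃ // v ≠ 0 ∧ H v v = 0}
  have e1 : Nat.card I = Nat.card (Iso 3 F 3) * Nat.card Fˣ := by
    rw [← Nat.card_prod]
    symm
    refine Nat.card_eq_of_bijective (fun x : Iso 3 F 3 × Fˣ => (⟨(x.2 : F) • x.1.1.rep,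
      smul_ne_zero x.2.ne_zero x.1.1.rep_nonzero,
      by rw [form_smul_left, form_smul_right C, x.1.2, mul_zero, mul_zero]⟩ : I)) ⟨?_, ?_⟩
    · rintro ⟨p, a⟩ ⟨p', a'⟩ h
      have h1 : (a : F) • p.1.rep = (a' : F) • p'.1.rep := congrArg Subtype.val h
      have hp : p = p' := by
        refine Subtype.ext ?_
        rw [← Projectivization.mk_rep p.1, ← Projectivization.mk_rep p'.1, Projectivization.mk_eq_mk_iff']
        exact ⟨(a : F)⁻¹ * a', by rw [← smul_smul, ← h1, inv_smul_smul₀ a.ne_zero]⟩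
      subst hp
      exact Prod.ext rfl (Units.ext (smul_left_injective F p.1.rep_nonzero h1))
    · rintro ⟨v, hv, h⟩
      obtain ⟨a, ha⟩ := Projectivization.exists_smul_eq_mk_rep F v hv
      refine ⟨(isoPt C hv h, a⁻¹), Subtype.ext ?_⟩
      show ((a⁻¹ : Fˣ) : F) • (isoPt C hv h).1.rep = v
      rw [← Units.smul_def, isoPt, ← ha, inv_smul_smul]
  have e2 : Nat.card I + 1 = normCard 3 3 F (0 : F) := by
    rw [normCard, ← Finite.card_option]
    exact Nat.card_congr
      { toFun := fun o => o.elim ⟨0, form_zero_left 0⟩ fun v => ⟨v.1, v.2.2⟩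
        invFun := fun w => if h : w.1 = 0 then none else some ⟨w.1, h, w.2⟩
        left_inv := fun o => by
          cases o with
          | none => simp
          | some v => simp [v.2.1]
        right_inv := fun w => by
          by_cases h : w.1 = 0
          · simp [h]; exact Subtype.ext h.symm
          · simp [h] }
  rw [card_isotropic C, if_neg (by decide)] at e2
  rw [Nat.card_units, Nat.card_eq_fintype_card (α := F), card_field C] at e1
  norm_num at e1 e2
  omega

/-- No element of order 7 has an invariant plane or line. -/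
theorem fix_of_invariant (C : Conj F 3) {x : SU₃} (hx : orderOf x = 7) (W : Submodule F V₃)
    (hW : ∀ w ∈ W, mat x *ᵥ w ∈ W) (hd : Module.finrank F W ≤ 2) : ∀ w ∈ W, mat x *ᵥ w = w := by
  classical
  haveI : Fact (Nat.Prime 7) := ⟨by norm_num⟩
  let f : W → W := fun w => ⟨mat x *ᵥ (w : V₃), hW _ w.2⟩
  have hinj : Function.Injective f := fun a b h => by
    have h' : mat x *ᵥ (a : V₃) = mat x *ᵥ (b : V₃) := congrArg Subtype.val h
    apply Subtype.ext
    rw [← SU_inv_mulVec x (a : V₃), h', SU_inv_mulVec]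
  let σ : Equiv.Perm W := Equiv.ofBijective f (Finite.injective_iff_bijective.1 hinj)
  have hpow : ∀ (k : ℕ) (w : W), (((σ ^ k) w : W) : V₃) = mat (x ^ k) *ᵥ (w : V₃) := by
    intro k
    induction k with
    | zero => intro w; simp
    | succ k ih =>
      intro w
      rw [pow_succ', Equiv.Perm.mul_apply, pow_succ' x, SU_coe_mul, ← Matrix.mulVec_mulVec, ← ih]
      rfl
  have hσ : σ ^ 7 ^ 1 = 1 := by
    ext w
    rw [pow_one, hpow, ← hx, pow_orderOf_eq_one]
    simp
  haveI : Fintype W := Fintype.ofFinite _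
  have h := Equiv.Perm.card_compl_support_modEq hσ
  let K : Submodule F V₃ := W ⊓ LinearMap.ker (Matrix.mulVecLin (mat x) - LinearMap.id)
  have hK : σ.supportᶜ.card = Nat.card K := by
    rw [← Fintype.card_coe, ← Nat.card_eq_fintype_card]
    refine Nat.card_congr ?_
    exact
      { toFun := fun w => ⟨((w.1 : W) : V₃), w.1.2, by
          have h := Equiv.Perm.notMem_support.1 (Finset.mem_compl.1 w.2)
          have h' : mat x *ᵥ ((w.1 : W) : V₃) = w.1 := congrArg Subtype.val h
          simp [LinearMap.mem_ker, h']⟩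
        invFun := fun k => ⟨⟨k.1, k.2.1⟩, Finset.mem_compl.2 (Equiv.Perm.notMem_support.2 (Subtype.ext (by
          show mat x *ᵥ (k : V₃) = k
          have := LinearMap.mem_ker.1 k.2.2
          simpa [sub_eq_zero] using this)))⟩
        left_inv := fun w => rfl
        right_inv := fun k => rfl }
  have hn : ∀ U : Submodule F V₃, Nat.card U = 9 ^ Module.finrank F U := fun U => by
    rw [Module.natCard_eq_pow_finrank (K := F), Nat.card_eq_fintype_card (α := F), card_field C]
  rw [hK, ← Nat.card_eq_fintype_card, hn, hn] at h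
  have hle : Module.finrank F K ≤ Module.finrank F W := Submodule.finrank_mono inf_le_left
  have heq : Module.finrank F K = Module.finrank F W := by
    rw [Nat.ModEq] at h
    generalize Module.finrank F K = a at *
    generalize Module.finrank F W = b at *
    interval_cases b <;> interval_cases a <;> simp_all
  intro w hw
  have hKW : K = W := Submodule.eq_of_le_of_finrank_eq inf_le_left heq
  have hwK : w ∈ K := hKW ▸ hw
  have := LinearMap.mem_ker.1 hwK.2
  simpa [sub_eq_zero] using this

theorem not_commute (C : Conj F 3) (hcard : Nat.card SU₃ = 6048) {v : V₃} (hv : v ≠ 0) (hvv : H v v = 0)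
    [Fact (Nonempty (Conj F 3))] (hidx : (stabilizer SU₃ (isoPt C hv hvv)).index = 28)
    (hall : ∀ p : Iso 3 F 3, ∃ g : SU₃, g • isoPt C hv hvv = p)
    {x y : SU₃} (hx : orderOf x = 7) (hy : orderOf y = 2 ∨ orderOf y = 3) : ¬ Commute x y := by
  intro hc
  have hstab : ∀ p : Iso 3 F 3, x • p ≠ p := by
    intro p hp
    obtain ⟨g, rfl⟩ := hall p
    have hm : g⁻¹ * x * g ∈ stabilizer SU₃ (isoPt C hv hvv) := by
      rw [mem_stabilizer_iff, mul_smul, mul_smul, hp, inv_smul_smul]
    have h := Subgroup.card_mul_index (stabilizer SU₃ (isoPt C hv hvv))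
    rw [hidx, hcard] at h
    have h2 := Subgroup.orderOf_dvd_natCard (stabilizer SU₃ (isoPt C hv hvv)) hm
    rw [show g⁻¹ * x * g = MulAut.conj g⁻¹ x by simp, MulEquiv.orderOf_eq, hx] at h2
    omega
  have hfix : ∀ w : V₃, mat x *ᵥ w = w → w = 0 := by
    intro w hw
    by_contra hw0
    by_cases hww : H w w = 0
    · exact hstab (isoPt C hw0 hww) (by rw [smul_isoPt, isoPt_eq_iff]; exact ⟨1, by rw [one_smul, hw]⟩)
    · let P : Submodule F V₃ :=
        { carrier := {z | H z w = 0}
          zero_mem' := form_zero_left w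
          add_mem' := fun {a b} ha hb => by
            show H (a + b) w = 0
            rw [form_add_left, ha, hb, add_zero]
          smul_mem' := fun c a ha => by
            show H (c • a) w = 0
            rw [form_smul_left, ha, mul_zero] }
      have hP : Module.finrank F P ≤ 2 := by
        have hlt : P < ⊤ := lt_top_iff_ne_top.2 fun e => hww (show w ∈ P by rw [e]; exact Submodule.mem_top)
        have := Submodule.finrank_lt_finrank_of_lt hlt
        rw [finrank_top, Module.finrank_fin_fun] at this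
        omega
      have hfP := fix_of_invariant C hx P (fun z hz => by
        show H (mat x *ᵥ z) w = 0
        conv_lhs => rw [← hw]
        rw [SU_form]; exact hz) hP
      have hx1 : x = 1 := by
        refine SU_ext fun z => ?_
        have hz : z - (H z w / H w w) • w ∈ P := by
          show H _ w = 0
          rw [form_sub_left, form_smul_left, div_mul_cancel₀ _ hww, sub_self]
        have h1 := hfP _ hz
        rw [Matrix.mulVec_sub, Matrix.mulVec_smul, hw, sub_left_inj] at h1
        rw [h1]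
        exact (Matrix.one_mulVec z).symm
      rw [hx1, orderOf_one] at hx
      norm_num at hx
  let W : Submodule F V₃ := LinearMap.ker (Matrix.mulVecLin (mat y) - LinearMap.id)
  have memW : ∀ w, w ∈ W ↔ mat y *ᵥ w = w := fun w => by
    simp [W, LinearMap.mem_ker, sub_eq_zero]
  have hW : ∀ w : V₃, mat y *ᵥ w = w → w = 0 := by
    intro w hw
    have hinv : ∀ z ∈ W, mat x *ᵥ z ∈ W := fun z hz => by
      rw [memW, Matrix.mulVec_mulVec, ← SU_coe_mul, ← hc.eq, SU_coe_mul, ← Matrix.mulVec_mulVec,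
        (memW z).1 hz]
    have hlt : W < ⊤ := by
      refine lt_top_iff_ne_top.2 fun e => ?_
      have hy1 : y = 1 := by
        refine SU_ext fun z => ?_
        rw [(memW z).1 (by rw [e]; exact Submodule.mem_top)]
        exact (Matrix.one_mulVec z).symm
      rw [hy1, orderOf_one] at hy
      omega
    have hd := Submodule.finrank_lt_finrank_of_lt hlt
    rw [finrank_top, Module.finrank_fin_fun] at hd
    exact hfix w (fix_of_invariant C hx W hinv (by omega) w ((memW w).2 hw))
  have h3 := three_eq_zero C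
  rcases hy with hy | hy
  · have hneg : ∀ w : V₃, mat y *ᵥ w = -w := by
      intro w
      have h2 : mat y *ᵥ (mat y *ᵥ w) = w := by
        rw [Matrix.mulVec_mulVec, ← SU_coe_mul, ← pow_two, orderOf_dvd_iff_pow_eq_one.1 (dvd_of_eq hy)]
        exact Matrix.one_mulVec w
      refine eq_neg_of_add_eq_zero_left (hW _ ?_)
      rw [Matrix.mulVec_add, h2, add_comm]
    have hy' : mat y = -1 := Matrix.ext_iff_mulVec.2 fun w => by rw [hneg, Matrix.neg_mulVec, Matrix.one_mulVec]
    have hdet : (mat y).det = 1 := (y : Matrix.SpecialLinearGroup (Fin 3) F).2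
    rw [hy', Matrix.det_neg, Matrix.det_one, Fintype.card_fin] at hdet
    apply one_ne_zero (α := F)
    linear_combination hdet + h3
  · let D : V₃ → V₃ := fun w => mat y *ᵥ w - w
    have hD : ∀ w, D w = 0 → w = 0 := fun w h => hW w (sub_eq_zero.1 h)
    obtain ⟨w, hw⟩ : ∃ w : V₃, w ≠ 0 := exists_ne 0
    apply hw
    refine hD _ (hD _ (hD _ ?_))
    have hy3 : mat y *ᵥ (mat y *ᵥ (mat y *ᵥ w)) = w := by
      rw [Matrix.mulVec_mulVec, ← SU_coe_mul, Matrix.mulVec_mulVec, ← SU_coe_mul,
        show y * y * y = y ^ 3 by rw [pow_succ, pow_two], orderOf_dvd_iff_pow_eq_one.1 (dvd_of_eq hy)]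
      exact Matrix.one_mulVec w
    funext i
    simp only [D, Matrix.mulVec_sub, Pi.sub_apply, hy3, Pi.zero_apply]
    linear_combination ((mat y *ᵥ w) i - (mat y *ᵥ (mat y *ᵥ w)) i) * h3

theorem mul_eq_right_of_det {A M : Matrix (Fin 3) (Fin 3) F} (hM : M.det ≠ 0) (h : A * M = M) : A = 1 := by
  have hu : IsUnit M.det := isUnit_iff_ne_zero.2 hM
  rw [← mul_one A, ← Matrix.mul_nonsing_inv M hu, ← mul_assoc, h]

/-- The data of `SU(3,3)`. -/
theorem exists_UData (C : Conj F 3) : Nonempty (UData (Cfsg.SU 3 F 3) F) := by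
  classical
  haveI : Fact (Nonempty (Conj F 3)) := ⟨⟨C⟩⟩
  have h8 := fun {a : F} => pow_eight C (a := a)
  obtain ⟨v, r, hvv, hrr, hrv⟩ := exists_iso_pair C (le_refl 3)
  have hv : v ≠ 0 := fun e => by simp [e, form_zero_right C] at hrv
  have hr : r ≠ 0 := fun e => by simp [e, form_zero_left] at hrv
  have hvr : H v r = 1 := by rw [← form_conj C, hrv, map_one]
  have hcard : Nat.card SU₃ = 6048 := by
    have h1 := card_SU_mul C (n := 3) (by norm_num)
    rw [card_GU C] at h1
    norm_num [Finset.prod_range_succ, show ¬ Even 1 by decide] at h1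
    rw [Nat.card_eq_fintype_card]
    omega
  haveI : IsPretransitive SU₃ (Iso 3 F 3) := (isPreprimitive_iso C).toIsPretransitive
  set P₀ := isoPt C hv hvv with hP₀
  set B := stabilizer SU₃ P₀ with hBdef
  have hB : ∀ g : SU₃, g ∈ B ↔ ∃ c : F, c • v = mat g *ᵥ v := fun g => by
    rw [hBdef, mem_stabilizer_iff, hP₀, smul_isoPt, isoPt_eq_iff]
  let a : B →* F :=
    { toFun := fun g => H (mat (g : SU₃) *ᵥ v) r
      map_one' := by
        show H ((1 : Matrix (Fin 3) (Fin 3) F) *ᵥ v) r = 1
        rw [Matrix.one_mulVec, hvr]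
      map_mul' := fun g k => by
        obtain ⟨c, hc⟩ := (hB _).1 g.2
        obtain ⟨d, hd⟩ := (hB _).1 k.2
        show H (mat ((g : SU₃) * k) *ᵥ v) r = _
        rw [SU_coe_mul, ← Matrix.mulVec_mulVec, ← hd, Matrix.mulVec_smul, ← hc, smul_smul, form_smul_left,
          form_smul_left, form_smul_left, hvr]
        ring }
  have ha : ∀ g : B, mat (g : SU₃) *ᵥ v = a g • v := fun g => by
    obtain ⟨c, hc⟩ := (hB _).1 g.2
    show _ = H (mat (g : SU₃) *ᵥ v) r • v
    rw [← hc, form_smul_left, hvr, mul_one]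
  have ha0 : ∀ g : B, a g ≠ 0 := fun g e => SU_mulVec_ne_zero (g : SU₃) hv (by rw [ha, e, zero_smul])
  have hout : ∀ g : SU₃, g ∉ B → H (mat g *ᵥ v) v ≠ 0 := fun g hg =>
    form_ne_zero_of_iso C hv hvv (by rw [SU_form, hvv]) fun c e => hg ((hB g).2 ⟨c, e⟩)
  obtain ⟨w, hw⟩ := exists_smul_eq SU₃ P₀ (isoPt C hr hrr)
  have hwB : w ∉ B := fun h => by
    rw [hBdef, mem_stabilizer_iff, hw, hP₀, isoPt_eq_iff] at h
    obtain ⟨c, hc⟩ := h
    rw [← hc, form_smul_left, hvv, mul_zero] at hrv
    exact zero_ne_one hrv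
  set u := mat w *ᵥ v with hu
  have huv : H u v ≠ 0 := hout w hwB
  have hyu : ∀ (y : B) (h : w⁻¹ * y * w ∈ B), mat (y : SU₃) *ᵥ u = a y ^ 5 • u ∧ a ⟨_, h⟩ = a y ^ 5 := by
    intro y h
    have h1 : mat (y : SU₃) *ᵥ u = a ⟨_, h⟩ • u := by
      rw [hu, Matrix.mulVec_mulVec, ← SU_coe_mul,
        show (y : SU₃) * w = w * (w⁻¹ * y * w) by group, SU_coe_mul, ← Matrix.mulVec_mulVec,
        show mat (w⁻¹ * (y : SU₃) * w) *ᵥ v = a ⟨_, h⟩ • v from ha ⟨_, h⟩, Matrix.mulVec_smul]
    have h2 : a ⟨_, h⟩ * a y ^ 3 = 1 := by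
      have e := SU_form (y : SU₃) u v
      rw [h1, ha, form_smul_left, form_smul_right C, C.pow, ← mul_assoc] at e
      exact mul_right_cancel₀ huv (e.trans (one_mul _).symm)
    have h3 : a ⟨_, h⟩ = a y ^ 5 := by
      calc a ⟨_, h⟩ = a ⟨_, h⟩ * (a y ^ 3 * a y ^ 5) := by rw [← pow_add, h8 (ha0 y), mul_one]
        _ = a y ^ 5 := by rw [← mul_assoc, h2, one_mul]
    exact ⟨by rw [h1, h3], h3⟩
  have hidx : B.index = 28 := by
    rw [hBdef, index_stabilizer_of_transitive, card_iso C]
  refine ⟨{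
    B := B
    a := a
    w := w
    card := hcard
    perfect := commutator_eq_top C (le_refl 3) (by omega)
    index := hidx
    two := ?_
    out := hwB
    twist := fun y h => (hyu y h).2
    eight := fun y => h8 (ha0 y)
    inj := ?_
    sq := ?_
    cent := fun x y hx hy => not_commute C hcard hv hvv hidx (fun p => exists_smul_eq SU₃ _ p) hx hy }⟩
  · intro x hx
    set z := mat x *ᵥ v with hz
    obtain ⟨A, c, hA1, hc, hA2⟩ := exists_move_fix C (u := v) (w := u) (z := z) hvv
      (by rw [hu, SU_form, hvv]) (by rw [hz, SU_form, hvv]) huv (hout x hx)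
    refine ⟨⟨A, (hB A).2 ⟨1, by rw [one_smul, hA1]⟩⟩, ?_⟩
    rw [hB]
    refine ⟨c⁻¹, ?_⟩
    show c⁻¹ • v = mat ((A * w)⁻¹ * x) *ᵥ v
    rw [SU_coe_mul, ← Matrix.mulVec_mulVec, ← hz]
    have h1 : mat (A * w) *ᵥ v = c • z := by rw [SU_coe_mul, ← Matrix.mulVec_mulVec, ← hu, hA2]
    have h2 := SU_inv_mulVec (A * w) v
    rw [h1, Matrix.mulVec_smul] at h2
    rw [← h2, inv_smul_smul₀ hc]
  · intro y h hy
    have hyv : mat (y : SU₃) *ᵥ v = v := by rw [ha, hy, one_smul]
    have hyu' : mat (y : SU₃) *ᵥ u = u := by rw [(hyu y h).1, hy, one_pow, one_smul]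
    have hne : ∀ c : F, c • v ≠ u := fun c e => huv (by rw [← e, form_smul_left, hvv, mul_zero])
    obtain ⟨z, hz0, hzv, hzu, hzs⟩ := exists_span_perp C hv hne
    obtain ⟨b, hb⟩ := hzs (mat (y : SU₃) *ᵥ z)
      (by conv_lhs => rw [← hyv]
          rw [SU_form, hzv])
      (by conv_lhs => rw [← hyu']
          rw [SU_form, hzu])
    let M : Matrix (Fin 3) (Fin 3) F := Matrix.of fun i j => (![v, u, z] : Fin 3 → V₃) j i
    have hM : M.det ≠ 0 := by
      intro h0
      obtain ⟨k, hk, hk0⟩ := Matrix.exists_mulVec_eq_zero_iff.2 h0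
      have hk' : k 0 • v + k 1 • u + k 2 • z = 0 := by
        rw [← hk0]
        funext i
        simp [M, Matrix.mulVec, dotProduct, Fin.sum_univ_three]
        ring
      have hvu : H v u ≠ 0 := by rw [← form_conj C]; exact (map_ne_zero C.σ).2 huv
      have e1 := congrArg (fun t => H t v) hk'
      have e2 := congrArg (fun t => H t u) hk'
      simp only [form_add_left, form_smul_left, hvv, hzv, hzu, form_zero_left,
        show H u u = 0 by rw [hu, SU_form, hvv]] at e1 e2
      have k1 : k 1 = 0 := by simpa [huv] using e1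
      have k0 : k 0 = 0 := by simpa [hvu] using e2
      rw [k0, k1, zero_smul, zero_smul, zero_add, zero_add] at hk'
      have k2 := (smul_eq_zero.1 hk').resolve_right hz0
      exact hk (funext fun i => by fin_cases i <;> assumption)
    have hMy : mat (y : SU₃) * M = M * Matrix.diagonal ![1, 1, b] := by
      ext i j
      rw [Matrix.mul_diagonal, Matrix.mul_apply]
      have : ∑ k, (mat (y : SU₃)) i k * M k j = (mat (y : SU₃) *ᵥ (![v, u, z] : Fin 3 → V₃) j) i := rfl
      rw [this]
      fin_cases j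
      · simp [M, hyv]
      · simp [M, hyu']
      · simp [M, ← hb, mul_comm]
    have hb1 : b = 1 := by
      have := congrArg Matrix.det hMy
      rw [Matrix.det_mul, Matrix.det_mul, Matrix.det_diagonal, Fin.prod_univ_three,
        show (mat (y : SU₃)).det = 1 from ((y : SU₃) : Matrix.SpecialLinearGroup (Fin 3) F).2] at this
      simpa [hM] using this
    have hy1 : mat (y : SU₃) = 1 := by
      have hd : Matrix.diagonal (![1, 1, b] : Fin 3 → F) = 1 := by
        rw [hb1, show (![1, 1, 1] : Fin 3 → F) = 1 from funext fun i => by fin_cases i <;> rfl]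
        exact Matrix.diagonal_one
      rw [hd, mul_one] at hMy
      exact mul_eq_right_of_det hM hMy
    exact Subtype.ext (Subtype.ext (Subtype.ext hy1))
  · intro g hg h
    set u' := mat g *ᵥ v with hu'
    have hh : H u' v ≠ 0 := hout g hg
    have hgu : mat g *ᵥ u' = a ⟨_, h⟩ • v := by
      rw [hu', Matrix.mulVec_mulVec, ← SU_coe_mul]
      exact ha ⟨_, h⟩
    have e := SU_form g v u'
    rw [hgu, form_smul_right C, ← hu', ← form_conj C u' v, C.pow, C.pow] at e
    set t := H u' v
    set c := a ⟨_, h⟩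
    have hc : c ^ 3 = t ^ 2 := mul_right_cancel₀ hh (by linear_combination e)
    calc c ^ 4 = c ^ 4 * c ^ 8 := by rw [h8 (ha0 _), mul_one]
      _ = (c ^ 3) ^ 4 := by ring
      _ = t ^ 8 := by rw [hc]; ring
      _ = 1 := h8 hh

end CfsgLib.DegGraph
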